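import Cfsg.Agent.Lib.RankOne.Form
import Cfsg.Agent.S0033

/-! # The split rank-one set-up: nilpotency of `Q`, involutions central in `Q` -/

set_option linter.style.haveILetI false
set_option linter.unusedSectionVars false

namespace Cfsg.Agent.Lib.RankOne

open MulAction Cfsg

/-- A finite nilpotent group containing an involution contains a central one. -/
theorem exists_central_invol_aux (H : Type*) [Group H] [Group.IsNilpotent H] :
    Finite H → (∃ s : H, s ≠ 1 ∧ s * s = 1) → ∃ z : H, z ≠ 1 ∧ z * z = 1 ∧ ∀ x : H, z * x = x * z := by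
  refine Group.nilpotent_center_quotient_ind
    (P := fun H _ _ => Finite H → (∃ s : H, s ≠ 1 ∧ s * s = 1) →
      ∃ z : H, z ≠ 1 ∧ z * z = 1 ∧ ∀ x : H, z * x = x * z) H ?_ ?_
  · intro H _ _ _ ⟨s, hs, _⟩
    exact absurd (Subsingleton.elim s 1) hs
  · intro H _ _ ih _ ⟨s, hs1, hs2⟩
    classical
    haveI : Fact (Nat.Prime 2) := ⟨Nat.prime_two⟩
    by_cases hZ : Even (Nat.card (Subgroup.center H))
    · obtain ⟨z, hz⟩ := exists_prime_orderOf_dvd_card' (G := Subgroup.center H) 2 hZ.two_dvd
      have hz2 : z * z = 1 := by rw [← pow_two, ← hz]; exact pow_orderOf_eq_one z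
      have hz1 : z ≠ 1 := by
        intro h
        rw [h, orderOf_one] at hz
        omega
      refine ⟨z, ?_, ?_, ?_⟩
      · intro h
        exact hz1 (Subtype.ext h)
      · exact congrArg Subtype.val hz2
      · intro x
        exact ((Subgroup.mem_center_iff.mp z.2) x).symm
    · rw [Nat.not_even_iff_odd] at hZ
      have hodd : ∀ c : H, c ∈ Subgroup.center H → c * c = 1 → c = 1 := by
        intro c hc hcc
        have h1 : (⟨c, hc⟩ : Subgroup.center H) ^ 2 = 1 := by
          apply Subtype.ext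
          show c ^ 2 = 1
          rw [pow_two, hcc]
        have h2 : (⟨c, hc⟩ : Subgroup.center H) ^ Nat.card (Subgroup.center H) = 1 :=
          pow_card_eq_one'
        have h4 : (⟨c, hc⟩ : Subgroup.center H) = 1 := by
          have := (pow_gcd_eq_one (a := (⟨c, hc⟩ : Subgroup.center H))).mpr ⟨h1, h2⟩
          rw [show Nat.gcd 2 (Nat.card (Subgroup.center H)) = 1 from Nat.coprime_two_left.mpr hZ, pow_one] at this
          exact this
        exact congrArg Subtype.val h4
      have hs' : ((s : H) : H ⧸ Subgroup.center H) ≠ 1 := by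
        intro h
        rw [QuotientGroup.eq_one_iff] at h
        exact hs1 (hodd s h hs2)
      have hs2' : ((s : H) : H ⧸ Subgroup.center H) * (s : H) = 1 := by
        rw [← QuotientGroup.mk_mul, hs2]
        rfl
      obtain ⟨zb, hzb1, hzb2, hzb3⟩ := ih inferInstance ⟨_, hs', hs2'⟩
      obtain ⟨y, rfl⟩ := QuotientGroup.mk_surjective zb
      set n := Nat.card (Subgroup.center H) with hn
      obtain ⟨m, hm⟩ := hZ
      have hyy : y * y ∈ Subgroup.center H := by
        rw [← QuotientGroup.eq_one_iff, QuotientGroup.mk_mul]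
        exact hzb2
      set z := y ^ n with hzdef
      have hz2 : z * z = 1 := by
        have h1 : z * z = (y * y) ^ n := by
          rw [hzdef, ← pow_add, ← two_mul, pow_mul, pow_two]
        rw [h1]
        have h2 : (⟨y * y, hyy⟩ : Subgroup.center H) ^ n = 1 := pow_card_eq_one'
        exact congrArg Subtype.val h2
      have hzb : (z : H ⧸ Subgroup.center H) = (y : H ⧸ Subgroup.center H) := by
        rw [hzdef, QuotientGroup.mk_pow, hm, pow_succ, pow_mul, pow_two, hzb2, one_pow, one_mul]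
      have hz1 : z ≠ 1 := by
        intro h
        apply hzb1
        rw [← hzb, h]
        rfl
      refine ⟨z, hz1, hz2, fun x => ?_⟩
      have hc : z * x * z⁻¹ * x⁻¹ ∈ Subgroup.center H := by
        rw [← QuotientGroup.eq_one_iff, QuotientGroup.mk_mul, QuotientGroup.mk_mul, QuotientGroup.mk_mul,
          QuotientGroup.mk_inv, QuotientGroup.mk_inv, hzb, hzb3]
        group
      set c := z * x * z⁻¹ * x⁻¹ with hcdef
      have hzinv : z⁻¹ = z := inv_eq_of_mul_eq_one_left hz2
      have hcm : ∀ g : H, c * g = g * c := fun g => ((Subgroup.mem_center_iff.mp hc) g).symm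
      have e1 : z * x * z = c * x := by
        rw [hcdef, hzinv]
        group
      have e2 : c * c = 1 := by
        have h1 : z * (c * x) * z = c * (c * x) := by
          calc z * (c * x) * z = (z * c) * x * z := by group
            _ = (c * z) * x * z := by rw [← hcm z]
            _ = c * (z * x * z) := by group
            _ = c * (c * x) := by rw [e1]
        have h3 : z * (c * x) * z = x := by
          rw [← e1]
          calc z * (z * x * z) * z = (z * z) * x * (z * z) := by group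
            _ = x := by rw [hz2]; group
        have h4 : c * (c * x) = x := h1.symm.trans h3
        have h5 : (c * c) * x = 1 * x := by
          rw [mul_assoc, h4, one_mul]
        exact mul_right_cancel h5
      have e3 := hodd c hc e2
      have e4 : z * x * z⁻¹ = x := by
        have := e3
        rw [hcdef] at this
        exact mul_inv_eq_one.mp this
      exact (mul_inv_eq_iff_eq_mul.mp e4)

variable {G Ω : Type*} [Group G] [Finite G] [MulAction G Ω] {a : Ω} {t : G} {Q : Subgroup G}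

namespace Setup

variable (hS : IsRankOneSetup G Ω a t Q)
include hS

/-- From two commuting involutions: a non-identity element of `K`. -/
lemma exists_K_ne_one (h2 : ∃ x y : G, x ≠ 1 ∧ y ≠ 1 ∧ x ≠ y ∧ x * x = 1 ∧ y * y = 1 ∧ x * y = y * x) :
    ∃ k ∈ invertedBy (DD G a t) t, k ≠ 1 := by
  obtain ⟨x, y, hx1, hy1, hxy, hx2, hy2, hc⟩ := h2
  obtain ⟨c, hcx, -⟩ := invol_fix hS hx1 hx2
  have hyc : y • c = c := fix_of_commute hS hx1 hx2 hc.symm hcx
  obtain ⟨g, hg⟩ := trans hS c a
  have mk : ∀ w : G, w ≠ 1 → w * w = 1 → w • c = c → g * w * g⁻¹ ∈ involutionsIn (stabilizer G a : Set G) := by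
    intro w hw1 hw2 hw3
    refine ⟨?_, ?_, ?_⟩
    · show (g * w * g⁻¹) • a = a
      rw [← hg, mul_smul, mul_smul, inv_smul_smul, hw3]
    · intro h
      apply hw1
      have : w = g⁻¹ * (g * w * g⁻¹) * g := by group
      rw [this, h]
      group
    · calc g * w * g⁻¹ * (g * w * g⁻¹) = g * (w * w) * g⁻¹ := by group
        _ = 1 := by rw [hw2]; group
  obtain ⟨k, hk, hks⟩ := exists_K_conj hS (mk x hx1 hx2 hcx) (mk y hy1 hy2 hyc)
  refine ⟨k, hk, ?_⟩
  rintro rfl
  apply hxy
  have h1 : g * x * g⁻¹ = g * y * g⁻¹ := by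
    rw [← hks]
    group
  exact mul_left_cancel (mul_right_cancel h1)

/-- `K` is closed under powers. -/
lemma K_pow {k : G} (hk : k ∈ invertedBy (DD G a t) t) (n : ℕ) : k ^ n ∈ invertedBy (DD G a t) t := by
  refine ⟨Subgroup.pow_mem _ hk.1 _, ?_⟩
  have h3 := conj_pow (a := t) (b := k) (i := n)
  rw [← h3, hk.2, inv_pow]

/-- **`Q` is nilpotent** (Thompson). -/
theorem Q_nilpotent (h2 : ∃ x y : G, x ≠ 1 ∧ y ≠ 1 ∧ x ≠ y ∧ x * x = 1 ∧ y * y = 1 ∧ x * y = y * x) :
    Group.IsNilpotent Q := by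
  obtain ⟨k₀, hk₀, hk₀1⟩ := exists_K_ne_one hS h2
  -- an element of prime order
  have hone : orderOf k₀ ≠ 1 := by
    intro h
    exact hk₀1 (orderOf_eq_one_iff.mp h)
  set p := (orderOf k₀).minFac with hp
  have hpp : p.Prime := Nat.minFac_prime hone
  haveI : Fact p.Prime := ⟨hpp⟩
  set k := k₀ ^ (orderOf k₀ / p) with hkdef
  have hkK : k ∈ invertedBy (DD G a t) t := K_pow hS hk₀ _
  have hord : orderOf k = p := orderOf_pow_orderOf_div (orderOf_pos k₀).ne' (Nat.minFac_dvd _)
  have hk1 : k ≠ 1 := by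
    intro h
    rw [h, orderOf_one] at hord
    exact hpp.one_lt.ne hord
  have hfpf := K_fpf hS hkK hk1
  have hka : k ∈ stabilizer G a := hkK.1.1
  have hka' : k⁻¹ ∈ stabilizer G a := Subgroup.inv_mem _ hka
  let φ : Q ≃* Q :=
    { toFun := fun x => ⟨k * x * k⁻¹, hS.conj_mem k hka x x.2⟩
      invFun := fun x => ⟨k⁻¹ * x * k, by
        have := hS.conj_mem k⁻¹ hka' x x.2
        rwa [inv_inv] at this⟩
      left_inv := fun x => by
        apply Subtype.ext
        show k⁻¹ * (k * x * k⁻¹) * k = x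
        group
      right_inv := fun x => by
        apply Subtype.ext
        show k * (k⁻¹ * x * k) * k⁻¹ = x
        group
      map_mul' := fun x y => by
        apply Subtype.ext
        show k * (x * y) * k⁻¹ = (k * x * k⁻¹) * (k * y * k⁻¹)
        group }
  have hφ : ∀ x : Q, ((φ x : Q) : G) = k * x * k⁻¹ := fun _ => rfl
  have hfp : MonoidHom.FixedPointFree (φ : Q →* Q) := by
    intro x hx
    have h1 : k * (x : G) * k⁻¹ = x := congrArg Subtype.val hx
    have h3 : (x : G) ∈ Q ⊓ Subgroup.centralizer {k} := by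
      refine ⟨x.2, Subgroup.mem_centralizer_singleton_iff.mpr ?_⟩
      exact (mul_inv_eq_iff_eq_mul.mp h1).symm
    rw [hfpf] at h3
    exact Subtype.ext h3
  have hpow : ∀ (n : ℕ) (x : Q), (((φ ^ n : Q ≃* Q) x : Q) : G) = k ^ n * x * (k ^ n)⁻¹ := by
    intro n
    induction n with
    | zero => intro x; simp
    | succ n ih =>
      intro x
      rw [pow_succ']
      show ((φ ((φ ^ n : Q ≃* Q) x) : Q) : G) = _
      rw [hφ, ih, pow_succ']
      group
  have h1 : φ ^ p = 1 := by
    ext x
    rw [hpow, ← hord, pow_orderOf_eq_one]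
    simp
  have hne : φ ≠ 1 := by
    obtain ⟨s, hs, hs1, -⟩ := exists_invol hS
    intro h
    have h3 : φ ⟨s, hs⟩ = ⟨s, hs⟩ := by rw [h]; rfl
    have h4 := hfp ⟨s, hs⟩ h3
    exact hs1 (congrArg Subtype.val h4)
  exact Cfsg.Agent.S0033.result φ hfp p hpp (orderOf_eq_prime h1 hne)

/-- Every involution of `G_a` is central in `Q`. -/
theorem invol_central (h2 : ∃ x y : G, x ≠ 1 ∧ y ≠ 1 ∧ x ≠ y ∧ x * x = 1 ∧ y * y = 1 ∧ x * y = y * x)
    {s : G} (hs : s ∈ involutionsIn (stabilizer G a : Set G)) :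
    s ∈ Q ∧ ∀ x ∈ Q, s * x = x * s := by
  haveI := Q_nilpotent hS h2
  obtain ⟨s₀, hs₀, hs₀1, hs₀2⟩ := exists_invol hS
  obtain ⟨z, hz1, hz2, hz3⟩ := exists_central_invol_aux Q inferInstance
    ⟨⟨s₀, hs₀⟩, fun h => hs₀1 (congrArg Subtype.val h), Subtype.ext hs₀2⟩
  have hzJ : (z : G) ∈ involutionsIn (stabilizer G a : Set G) := by
    refine ⟨hS.le z.2, fun h => hz1 (Subtype.ext h), congrArg Subtype.val hz2⟩
  obtain ⟨k, hk, hks⟩ := exists_K_conj hS hzJ hs
  have hka : k ∈ stabilizer G a := hk.1.1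
  have hka' : k⁻¹ ∈ stabilizer G a := Subgroup.inv_mem _ hka
  refine ⟨mem_Q_of_invol hS hs.1 hs.2.2, fun x hx => ?_⟩
  have h1 : k⁻¹ * x * k ∈ Q := by
    have := hS.conj_mem k⁻¹ hka' x hx
    rwa [inv_inv] at this
  have h3 := congrArg Subtype.val (hz3 ⟨_, h1⟩)
  have h4 : (z : G) * (k⁻¹ * x * k) = (k⁻¹ * x * k) * z := h3
  rw [← hks]
  calc k * z * k⁻¹ * x = k * ((z : G) * (k⁻¹ * x * k)) * k⁻¹ := by group
    _ = k * ((k⁻¹ * x * k) * z) * k⁻¹ := by rw [h4]
    _ = x * (k * z * k⁻¹) := by group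

/-- Involutions of `G_a` commute. -/
theorem invol_commute (h2 : ∃ x y : G, x ≠ 1 ∧ y ≠ 1 ∧ x ≠ y ∧ x * x = 1 ∧ y * y = 1 ∧ x * y = y * x)
    {s s' : G} (hs : s ∈ involutionsIn (stabilizer G a : Set G))
    (hs' : s' ∈ involutionsIn (stabilizer G a : Set G)) : s * s' = s' * s :=
  (invol_central hS h2 hs).2 s' (invol_central hS h2 hs').1

end Setup

end Cfsg.Agent.Lib.RankOne
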