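import Cfsg.Agent.Lib.RankOne.Nil

/-! # The split rank-one set-up: products of two involutions -/

set_option linter.style.haveILetI false
set_option linter.unusedSectionVars false

namespace Cfsg.Agent.Lib.RankOne

open MulAction Cfsg

variable {G Ω : Type*} [Group G] [Finite G] [MulAction G Ω] {a : Ω} {t : G} {Q : Subgroup G}

namespace Setup

variable (hS : IsRankOneSetup G Ω a t Q)
include hS

/-- Involutions with the same fixed point commute. -/
lemma commute_of_same_fix (h2 : ∃ x y : G, x ≠ 1 ∧ y ≠ 1 ∧ x ≠ y ∧ x * x = 1 ∧ y * y = 1 ∧ x * y = y * x)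
    {u v : G} (hu1 : u ≠ 1) (hu2 : u * u = 1) (hv1 : v ≠ 1) (hv2 : v * v = 1) {e : Ω}
    (hu : u • e = e) (hv : v • e = e) : u * v = v * u := by
  obtain ⟨g, rfl⟩ := trans hS a e
  exact invol_commute (conj hS g) h2 ⟨hu, hu1, hu2⟩ ⟨hv, hv1, hv2⟩

/-- Products of two involutions of distinct fixed points: conjugacy to `u' * t`. -/
lemma prod_conj (h2 : ∃ x y : G, x ≠ 1 ∧ y ≠ 1 ∧ x ≠ y ∧ x * x = 1 ∧ y * y = 1 ∧ x * y = y * x)
    {u v : G} (hu1 : u ≠ 1) (hu2 : u * u = 1) (hv1 : v ≠ 1) (hv2 : v * v = 1)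
    (hx : (u * v) * (u * v) ≠ 1) :
    ∃ g : G, ∃ u' ∈ involutionsIn (stabilizer G a : Set G), g * (u * v) * g⁻¹ = u' * t := by
  obtain ⟨p, hp, -⟩ := invol_fix hS hu1 hu2
  obtain ⟨p', hp', -⟩ := invol_fix hS hv1 hv2
  obtain ⟨c, hc, -⟩ := invol_fix hS hS.ne_one hS.mul_self
  have hpp' : p ≠ p' := by
    rintro rfl
    apply hx
    have hcm := commute_of_same_fix hS h2 hu1 hu2 hv1 hv2 hp hp'
    calc u * v * (u * v) = u * (v * u) * v := by group
      _ = u * (u * v) * v := by rw [hcm]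
      _ = (u * u) * (v * v) := by group
      _ = 1 := by rw [hu2, hv2, one_mul]
  have hac : a ≠ c := by
    rintro rfl
    exact hS.not_mem hc
  obtain ⟨g, hg1, hg2⟩ := two_trans hS p p' a c hpp' hac
  -- the involution swapping `a` and `c`
  obtain ⟨r, hr, hrb⟩ := Q_trans hS (Ne.symm hac)
  have hra : r • a = a := hS.le hr
  set w := r * t * r⁻¹ with hw
  have hw2 : w * w = 1 := by
    calc w * w = r * (t * t) * r⁻¹ := by rw [hw]; group
      _ = 1 := by rw [hS.mul_self]; group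
  have hw1 : w ≠ 1 := by
    intro h
    apply hS.ne_one
    have : t = r⁻¹ * w * r := by rw [hw]; group
    rw [this, h]; group
  have hwa : w • a = c := by
    rw [hw, mul_smul, mul_smul]
    have : r⁻¹ • a = a := by
      conv_lhs => rw [← hra]
      rw [inv_smul_smul]
    rw [this, hrb]
  have hwc : w • c = a := by
    rw [← hwa, ← mul_smul, hw2, one_smul]
  have hwn : w ∉ stabilizer G a := by
    intro h
    have h1 : w • a = a := h
    rw [hwa] at h1
    exact hac h1.symm
  have S1 := conj_t (change_t hS hw2 hw1 hwn)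
  have hcS : w • a = c := hwa
  -- set-up at `c` with involution `w`
  set v₁ := g * v * g⁻¹ with hv₁
  set u₁ := g * u * g⁻¹ with hu₁
  have hv₁c : v₁ • c = c := by
    rw [hv₁, ← hg2, mul_smul, mul_smul, inv_smul_smul, hp']
  have hv₁1 : v₁ ≠ 1 := by
    intro h
    apply hv1
    have : v = g⁻¹ * v₁ * g := by rw [hv₁]; group
    rw [this, h]; group
  have hv₁2 : v₁ * v₁ = 1 := by
    calc v₁ * v₁ = g * (v * v) * g⁻¹ := by rw [hv₁]; group
      _ = 1 := by rw [hv2]; group
  have hu₁a : u₁ • a = a := by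
    rw [hu₁, ← hg1, mul_smul, mul_smul, inv_smul_smul, hp]
  have hu₁1 : u₁ ≠ 1 := by
    intro h
    apply hu1
    have : u = g⁻¹ * u₁ * g := by rw [hu₁]; group
    rw [this, h]; group
  have hu₁2 : u₁ * u₁ = 1 := by
    calc u₁ * u₁ = g * (u * u) * g⁻¹ := by rw [hu₁]; group
      _ = 1 := by rw [hu2]; group
  have J1 : v₁ ∈ involutionsIn (stabilizer G (w • a) : Set G) := by
    refine ⟨?_, hv₁1, hv₁2⟩
    show v₁ • (w • a) = w • a
    rw [hwa]; exact hv₁c
  have J2 : t ∈ involutionsIn (stabilizer G (w • a) : Set G) := by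
    refine ⟨?_, hS.ne_one, hS.mul_self⟩
    show t • (w • a) = w • a
    rw [hwa]; exact hc
  obtain ⟨k, hk, hkv⟩ := exists_K_conj S1 J1 J2
  have hka : k • a = a := by
    have h1 : k • (w • (w • a)) = w • (w • a) := hk.1.2
    rwa [← mul_smul w w a, hw2, one_smul] at h1
  have hka' : k ∈ stabilizer G a := hka
  refine ⟨k * g, k * u₁ * k⁻¹, ?_, ?_⟩
  · refine ⟨?_, ?_, ?_⟩
    · show (k * u₁ * k⁻¹) • a = a
      have hkinv : k⁻¹ • a = a := by
        conv_lhs => rw [← hka]
        rw [inv_smul_smul]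
      rw [mul_smul, mul_smul, hkinv, hu₁a, hka]
    · intro h
      apply hu₁1
      have : u₁ = k⁻¹ * (k * u₁ * k⁻¹) * k := by group
      rw [this, h]; group
    · calc k * u₁ * k⁻¹ * (k * u₁ * k⁻¹) = k * (u₁ * u₁) * k⁻¹ := by group
        _ = 1 := by rw [hu₁2]; group
  · calc k * g * (u * v) * (k * g)⁻¹ = (k * (g * u * g⁻¹) * k⁻¹) * (k * (g * v * g⁻¹) * k⁻¹) := by group
      _ = k * u₁ * k⁻¹ * t := by rw [← hu₁, ← hv₁, hkv]

/-- The centraliser of a product of two involutions, of square not `1`, has odd order. -/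
lemma prod_centr_odd (h2 : ∃ x y : G, x ≠ 1 ∧ y ≠ 1 ∧ x ≠ y ∧ x * x = 1 ∧ y * y = 1 ∧ x * y = y * x)
    {u v : G} (hu1 : u ≠ 1) (hu2 : u * u = 1) (hv1 : v ≠ 1) (hv2 : v * v = 1)
    (hx : (u * v) * (u * v) ≠ 1) : Odd (Nat.card ↥(Subgroup.centralizer {u * v})) := by
  classical
  by_contra hodd
  rw [Nat.not_odd_iff_even] at hodd
  haveI : Fact (Nat.Prime 2) := ⟨Nat.prime_two⟩
  obtain ⟨y, hy1', hy2', hyc⟩ : ∃ y : G, y ≠ 1 ∧ y * y = 1 ∧ y * (u * v) = (u * v) * y := by
    obtain ⟨y, hy⟩ := exists_prime_orderOf_dvd_card' (G := ↥(Subgroup.centralizer {u * v})) 2 hodd.two_dvd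
    have hy2 : y * y = 1 := by rw [← pow_two, ← hy]; exact pow_orderOf_eq_one y
    have hy1 : y ≠ 1 := by
      intro h
      rw [h, orderOf_one] at hy
      omega
    exact ⟨y, fun h => hy1 (Subtype.ext h), congrArg Subtype.val hy2,
      Subgroup.mem_centralizer_singleton_iff.mp y.2⟩
  obtain ⟨e, he, -⟩ := invol_fix hS hy1' hy2'
  set x := u * v with hxdef
  have hxe : x • e = e := fix_of_commute hS hy1' hy2' hyc.symm he
  have hx1 : x ≠ 1 := by
    intro h
    apply hx
    rw [h, one_mul]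
  have hxinv : u * x * u⁻¹ = x⁻¹ := by
    rw [hxdef, inv_eq_of_mul_eq_one_left hu2, mul_inv_rev, inv_eq_of_mul_eq_one_left hu2,
      inv_eq_of_mul_eq_one_left hv2]
    calc u * (u * v) * u = (u * u) * v * u := by group
      _ = v * u := by rw [hu2, one_mul]
  have hue : u • e ≠ e := by
    intro hue
    apply hx
    have hv' : v • e = e := by
      have h1 : u • (v • e) = e := by
        rw [← mul_smul]; exact hxe
      have h3 : u • (v • e) = u • e := by rw [h1, hue]
      exact smul_left_cancel u h3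
    have hcm := commute_of_same_fix hS h2 hu1 hu2 hv1 hv2 hue hv'
    rw [hxdef]
    calc u * v * (u * v) = u * (v * u) * v := by group
      _ = u * (u * v) * v := by rw [hcm]
      _ = (u * u) * (v * v) := by group
      _ = 1 := by rw [hu2, hv2, one_mul]
  obtain ⟨g, hg⟩ := trans hS a e
  subst hg
  have S0 := conj hS g
  have S1 := change_t S0 hu2 hu1 hue
  have hxK : x ∈ invertedBy (DD G (g • a) u) u := by
    refine ⟨⟨hxe, ?_⟩, hxinv⟩
    show x • u • g • a = u • g • a
    have h1 : x⁻¹ • (g • a) = g • a := by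
      conv_lhs => rw [← hxe]
      rw [inv_smul_smul]
    have h3 : x * u = u * x⁻¹ := by
      rw [← hxinv]
      have : u⁻¹ = u := inv_eq_of_mul_eq_one_left hu2
      rw [this]
      calc x * u = (u * u) * x * u := by rw [hu2, one_mul]
        _ = u * (u * x * u) := by group
    rw [← mul_smul, h3, mul_smul, h1]
  have hfpf := K_fpf S1 hxK hx1
  have hyQ : (y : G) ∈ (Q.map (MulAut.conj g).toMonoidHom) ⊓ Subgroup.centralizer {x} := by
    refine ⟨mem_Q_of_invol S1 he hy2', ?_⟩
    exact Subgroup.mem_centralizer_singleton_iff.mpr hyc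
  rw [hfpf] at hyQ
  exact hy1' hyQ

end Setup

end Cfsg.Agent.Lib.RankOne
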